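import Cfsg.Agent.HZ.Basic
import Cfsg.Agent.HZ.Gen.Blk
import Cfsg.Agent.HZ.Gen.Cur
import Cfsg.Agent.H646.RegInner
import Cfsg.Agent.S0968
import Cfsg.Agent.S0969

/-!
# HZ/L/T3: blocks with a central defect group (helper66)
-/

set_option autoImplicit false
set_option linter.unusedSectionVars false

namespace Cfsg.Agent.HZ.L.T3.Blk2

open Cfsg Subgroup Cfsg.Agent.HZ.Gen Cfsg.Agent.ODD.Red Cfsg.Agent.Characters Cfsg.Agent.Characters.Core Cfsg.Agent.Blocks
  Cfsg.Agent.Blocks.LocalRing Cfsg.Agent.Blocks.PPart Cfsg.Agent.H646.RegInner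
open scoped ComplexConjugate

variable {M : Ideal AlgInt} {H : Type} [Group H] [Fintype H] {χ ψ : H → ℂ} {y : H} {S : Subgroup H}

theorem syl (hS : IsPGroup 2 S) (hSy : S ≤ centralizer {y})
    (hs : (Nat.card (centralizer {y})).factorization 2 ≤ (Nat.card S).factorization 2) : Basic.IsSylowCentralizer 2 y S :=
  (Basic.isSylowCentralizer_iff 2 y S).2 ⟨hS, hSy, fun Q hQ h1 h2 => by
    obtain ⟨a, ha⟩ := IsPGroup.iff_card.1 hQ
    obtain ⟨b, hb⟩ := IsPGroup.iff_card.1 hS
    have h3 := (nu_le_of_dvd Nat.card_pos.ne' (card_dvd_of_le h1)).trans hs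
    refine (eq_of_le_of_card_ge h2 ?_).symm
    rw [ha, hb] at h3 ⊢
    rw [Nat.factorization_pow_self Nat.prime_two, Nat.factorization_pow_self Nat.prime_two] at h3
    exact Nat.pow_le_pow_right two_pos h3⟩

/-- defect zero modulo the kernel -/
theorem van (hM : IsPModular 2 M) (Z : Subgroup H) [Z.Normal] (hψ : IsIrrCharacter H ψ) (hZ : ∀ z ∈ Z, ψ z = ψ 1)
    (h : Z.index.factorization 2 ≤ (charDegree ψ).factorization 2) {g x : H} (hx : IsPPart 2 g x) (hxZ : x ∉ Z) : ψ g = 0 := by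
  obtain ⟨β, hβ, e⟩ := exists_quot (QuotientGroup.mk' Z) (QuotientGroup.mk'_surjective Z) hψ (by rwa [QuotientGroup.ker_mk'])
  have h1 : charDegree β = charDegree ψ := charDegree_congr (by rw [← e, map_one])
  rw [← e]
  refine (S0969.result 2 M hM ⊥ IsPGroup.of_bot bot_le ⟨β, hβ⟩ (le_antisymm ?_ ?_)).2 _ _ (part_hom _ hx) ?_
  · rw [index_bot]
    exact nu_le_of_dvd Nat.card_pos.ne' (CentralProduct.degree_dvd_card hβ (apply_one (isIrr_isCharacter hβ)))
  · rw [index_bot]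
    exact h.trans (congrArg (Nat.factorization · 2) h1).ge
  · exact fun e => hxZ ((QuotientGroup.eq_one_iff x).1 e)

/-- a constituent of a constituent -/
theorem inner_trans {A : Type} [Group A] [Fintype A] (κ : H →* A) {α η : A → ℂ} (hα : IsCharacter A α) (hη : IsIrrCharacter A η)
    (hψ : IsCharacter H ψ) (h1 : classInner α η ≠ 0) (h2 : classInner (η ∘ κ) ψ ≠ 0) : classInner (α ∘ κ) ψ ≠ 0 := by
  have := finite_irr (G := A)
  have := Fintype.ofFinite (IrrCharacter A)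
  obtain ⟨m, rfl⟩ := exists_nat_comb hα
  choose n hn using fun ξ : IrrCharacter A => classInner_isNat (isCharacter_comp κ (isIrr_isCharacter ξ.2)) hψ
  have e1 : (∑ ξ : IrrCharacter A, m ξ • (ξ : A → ℂ)) ∘ κ = ∑ ξ : IrrCharacter A, (m ξ : ℂ) • ((ξ : A → ℂ) ∘ κ) := by
    funext g
    simp [Finset.sum_apply]
  rw [classInner_sum_nsmul_irr m ⟨η, hη⟩] at h1
  rw [hn ⟨η, hη⟩] at h2
  rw [e1, classInner_sum_left]
  simp only [classInner_smul_left, hn]
  have e2 : ∑ ξ, m ξ * n ξ ≠ 0 := fun e => by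
    rcases mul_eq_zero.1 (Finset.sum_eq_zero_iff.1 e ⟨η, hη⟩ (Finset.mem_univ _)) with e | e
    exacts [h1 (by rw [e, Nat.cast_zero]), h2 (by rw [e, Nat.cast_zero])]
  exact_mod_cast e2

/-- the characters over a character of defect zero modulo `S` -/
theorem van_ov (hM : IsPModular 2 M) (hψ : IsIrrCharacter H ψ) (hk : ∀ z ∈ S, ψ z = ψ 1)
    (hd : S.index.factorization 2 ≤ (charDegree ψ).factorization 2) {H1 : Type} [Group H1] [Fintype H1] {ι : H →* H1}
    (hι : Function.Injective ι) [ι.range.Normal] [hn : (S.map ι).Normal] {ψ1 : H1 → ℂ} (hψ1 : IsIrrCharacter H1 ψ1)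
    (h : classInner (ψ1 ∘ ι) ψ ≠ 0) {g x : H1} (hx : IsPPart 2 g x) (h1 : x ∈ ι.range) (h2 : x ∉ S.map ι) : ψ1 g = 0 := by
  classical
  let e := (MonoidHom.ofInjective hι).symm
  have k0 : ∀ ξ, classInner (fun n : ι.range => ψ1 n) (ξ ∘ e) = classInner (ψ1 ∘ ι) ξ := fun ξ => by
    rw [← Clifford.classInner_comp_mulEquiv e]
    exact congrArg (classInner · _) (funext fun n => congrArg ψ1 (MonoidHom.apply_ofInjective_symm hι n).symm)
  have k1 : ∀ ξ, IsIrrCharacter H ξ → classInner (ψ1 ∘ ι) ξ ≠ 0 → ∀ z ∈ S, ξ z = ψ 1 := fun ξ hξ h3 z hz => by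
    obtain ⟨c, hc⟩ := Clifford.exists_conj_of_constituents ι.range hψ1 (isIrr_comp e.toMonoidHom e.surjective hψ)
      (isIrr_comp e.toMonoidHom e.surjective hξ) ((k0 ψ).trans_ne h) ((k0 ξ).trans_ne h3)
    obtain ⟨z', h4, h5⟩ := hn.conj_mem _ (mem_map_of_mem ι hz) c
    have h6 := congrFun hc (e.symm z)
    rw [← hk z' h4]
    refine (congrArg ξ (e.apply_symm_apply z)).symm.trans (h6.trans (congrArg ψ (e.symm.injective ?_)))
    exact (e.symm_apply_apply _).trans (Subtype.ext h5.symm)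
  obtain ⟨g', rfl, hc, hx, hg⟩ := hx
  let A := ι.range ⊔ zpowers g'
  let κ : H →* A := ι.codRestrict A fun z => mem_sup_left ⟨z, rfl⟩
  let x' : A := ⟨x, mem_sup_left h1⟩
  let g'' : A := ⟨g', mem_sup_right (mem_zpowers g')⟩
  have hp : IsPPart 2 (x' * g'') x' := ⟨g'', rfl, Subtype.ext hc, by rwa [orderOf_mk], by rwa [orderOf_mk]⟩
  have := finite_irr (G := A)
  have := Fintype.ofFinite (IrrCharacter A)
  have := finite_irr (G := H)
  have := Fintype.ofFinite (IrrCharacter H)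
  have hα := isCharacter_comp A.subtype (isIrr_isCharacter hψ1)
  refine (congrFun (classFunction_eq_sum (isCharacter_isClassFunction hα)) (x' * g'')).trans ?_
  rw [Finset.sum_apply]
  refine Finset.sum_eq_zero fun η _ => mul_eq_zero.2 (or_iff_not_imp_left.2 fun h3 => ?_)
  obtain ⟨m, hm⟩ := exists_nat_comb (isCharacter_comp κ (isIrr_isCharacter η.2))
  have k2 : ∀ z ∈ S, (η : A → ℂ) (κ z) = (∑ ξ, m ξ : ℕ) * ψ 1 := fun z hz => by
    refine (congrFun hm z).trans ?_
    rw [Finset.sum_apply, Nat.cast_sum, Finset.sum_mul]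
    refine Finset.sum_congr rfl fun ξ _ => ?_
    rw [Pi.smul_apply, nsmul_eq_mul]
    by_cases h4 : m ξ = 0
    · simp [h4]
    · rw [k1 ξ ξ.2 (inner_trans κ hα η.2 (isIrr_isCharacter ξ.2) h3 (by
        rw [hm, classInner_sum_nsmul_irr]
        exact_mod_cast h4)) z hz]
  have k3 := k2 1 S.one_mem
  rw [map_one] at k3
  refine van hM ((S.map ι).subgroupOf A) η.2 (fun z ⟨s, h4, h5⟩ => ?_) ?_ hp h2
  · rw [k3, ← k2 s h4]
    exact congrArg _ (Subtype.ext h5.symm)
  have e1 := relIndex_mul_relIndex (S.map ι) ι.range A (map_le_range _ _) le_sup_left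
  have e2 : ¬ 2 ∣ ι.range.relIndex A := fun e2 => hg (by
    rw [relIndex_sup_left] at e2
    exact e2.trans (Nat.card_zpowers g' ▸ relIndex_dvd_card _ _))
  rw [MonoidHom.range_eq_map ι, relIndex_map_map_of_injective _ _ hι, relIndex_top_right, ← MonoidHom.range_eq_map] at e1
  rw [apply_one (isIrr_isCharacter hψ), ← Nat.cast_mul] at k3
  rw [show ((S.map ι).subgroupOf A).index = _ from e1.symm, Nat.factorization_mul index_ne_zero_of_finite
    (by rintro e; simp [e] at e2), Finsupp.add_apply, Nat.factorization_eq_zero_of_not_dvd e2, add_zero]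
  exact hd.trans (nu_le_of_dvd (Basic.charDegree_pos η.2).ne' (charDegree_of k3 ▸ dvd_mul_left _ _))

/-- **a block with a central defect group** -/
theorem main (hM : IsPModular 2 M) (hχ : IsIrrCharacter H χ) (hy : Good M χ y) (hS : IsPGroup 2 S) (hSy : S ≤ centralizer {y})
    (hs : (Nat.card (centralizer {y})).factorization 2 ≤ (Nat.card S).factorization 2) (hZ : S ≤ center H) :
    ∃ ψ, IsIrrCharacter H ψ ∧ (∀ g, ¬ 2 ∣ orderOf g → ψ g = χ g) ∧ (∀ z ∈ S, ∀ g, ψ (z * g) = ψ g) ∧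
      (∀ g u, IsPPart 2 g u → u ∉ S → χ g = 0 ∧ ψ g = 0) ∧
      ∀ (H1 : Type) [Group H1] [Fintype H1] (ι : H →* H1), Function.Injective ι → commutator H1 ≤ ι.range →
        ∀ ψ1, IsIrrCharacter H1 ψ1 → classInner (ψ1 ∘ ι) ψ ≠ 0 →
          ∀ g x u, IsPPart 2 g x → IsConj (ι u) x → u ∉ S → ψ1 g = 0 := by
  classical
  have := isPrime hM
  have := finite_irr (G := H)
  have := Fintype.ofFinite (IrrCharacter H)
  have h0 := syl hS hSy hs
  have hB := Basic.isPBlock_blockOf (M := M) ⟨χ, hχ⟩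
  have hc : ∀ z ∈ S, ∀ g, Commute z g := fun z hz g => (mem_center_iff.1 (hZ hz) g).symm
  obtain ⟨⟨θ, ⟨h1, h2⟩, h3⟩, h4, -⟩ := S0968.result 2 M hM S hS (eq_top_iff.2 fun g _ => mem_sup_right fun z hz => hc z hz g) _ hB
    (hy.defect hM hχ h0)
  have h5 := h4 θ h1 h2
  have h6 := fun z hz => apply_mul_of_ker (isIrr_isCharacter θ.2) (h2 z hz)
  have h7 := (S0969.result 2 M hM S hS hZ θ h5).2
  have h8 := (S0969.result 2 M hM S hS hZ ⟨χ, hχ⟩ (by
    obtain ⟨Q, hQ⟩ := h0
    rw [S0968.factorization_index 2 y Q S hQ, hy.nu hM hχ])).2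
  refine ⟨θ, θ.2, ?_, h6, fun g u a b => ⟨h8 g u a b, h7 g u a b⟩, fun H1 _ _ ι hι hN ψ1 hψ1 h g x u a b c => ?_⟩
  · let φ : H → ℂ := fun g => ∑ s : S, pRegularPart 2 χ (s * g)
    have e1 : IsClassFunction H φ := fun g h => Finset.sum_congr rfl fun s _ => by
      rw [← isClassFunction_pRegularPart (isIrr_isClassFunction hχ) (s * g) h, ← mul_assoc, ← mul_assoc, (hc s s.2 h).eq, ← mul_assoc]
    have e2 : ∀ g, ¬ 2 ∣ orderOf g → φ g = χ g := fun g hg => by
      refine (Finset.sum_eq_single (1 : S) (fun s _ h => pRegularPart_of_dvd (by_contra fun e => h (Subtype.ext ?_)))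
        fun e => absurd (Finset.mem_univ _) e).trans ?_
      · exact isPPart_unique (isPPart_mul (hc s s.2 g) (ord_of_mem hS s.2) hg) (isPPart_of_not_dvd e)
      · rw [OneMemClass.coe_one, one_mul, pRegularPart_of_not_dvd hg]
    have e3 : ∀ ξ : IrrCharacter H, classInner φ ξ ≠ 0 → ξ = θ := fun ξ h => by
      have e4 := fun a (ha : a ∈ S) => ker_of_inner ξ.2 (hZ ha) (fun g => (Fintype.sum_equiv (Equiv.mulRight (⟨a, ha⟩ : S)) _ _
        fun s => congrArg (pRegularPart 2 χ) (mul_assoc (s : H) a g).symm)) h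
      refine h3 ξ ⟨by_contra fun e => h ?_, fun a ha => by rw [← e4 a ha 1, mul_one]⟩
      rw [show φ = ∑ s : S, fun g => pRegularPart 2 χ (s * g) from funext fun g => by rw [Finset.sum_apply],
        classInner_sum_left]
      refine Finset.sum_eq_zero fun s _ => Eq.trans ?_ (classInner_pRegularPart_eq_zero hM hB (Basic.mem_blockOf_self _) e)
      rw [classInner, classInner, ← Equiv.sum_comp (Equiv.mulLeft (s : H)) fun g => pRegularPart 2 χ g * _]
      exact congrArg _ (Finset.sum_congr rfl fun g _ => by rw [Equiv.coe_mulLeft, e4 s s.2])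
    obtain ⟨a, ha⟩ : ∃ a : ℂ, ∀ g, ¬ 2 ∣ orderOf g → χ g = a * (θ : H → ℂ) g := ⟨classInner φ θ, fun g hg => by
      rw [← e2 g hg, congrFun (classFunction_eq_sum e1) g, Finset.sum_apply]
      exact Finset.sum_eq_single θ (fun ξ _ h => mul_eq_zero_of_left (by_contra fun e => h (e3 ξ e)) _)
        fun e => absurd (Finset.mem_univ _) e⟩
    have e4 : ∀ g, χ g * conj (χ g) = a * conj a * ((θ : H → ℂ) g * conj ((θ : H → ℂ) g)) := fun g => by
      obtain ⟨u, hu⟩ := exists_isPPart 2 g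
      by_cases h : u ∈ S
      · obtain ⟨g', rfl, -, -, hg⟩ := hu
        obtain ⟨w, e5, e6⟩ := CharDeep.DegreeBound.exists_omega hχ (hZ h)
        have e7 : w * conj w = 1 := by rw [Complex.mul_conj, Complex.normSq_eq_norm_sq, e5]; simp
        rw [h6 u h, (hc u h g').eq, e6, ha g' hg, map_mul, map_mul]
        linear_combination (a * conj a * ((θ : H → ℂ) g' * conj ((θ : H → ℂ) g'))) * e7
      · rw [show χ g = 0 from h8 g u hu h, h7 g u hu h, zero_mul, mul_zero]
    have e5 := classInner_irr_self hχ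
    have e6 := ha 1 (by simp)
    rw [classInner, Finset.sum_congr rfl fun g _ => e4 g, ← Finset.mul_sum, mul_left_comm, ← classInner,
      classInner_irr_self θ.2, mul_one] at e5
    obtain ⟨n, -, hn⟩ := isIrr_apply_one hχ
    obtain ⟨m, hm0, hm⟩ := isIrr_apply_one θ.2
    rw [hn, hm] at e6
    have e7 := congrArg conj e6
    rw [map_mul, map_natCast, map_natCast] at e7
    have e8 : n * n = m * m := by
      have : (n : ℂ) * n = m * m := by linear_combination n * e6 + a * m * e7 + m * m * e5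
      exact_mod_cast this
    rw [Nat.mul_self_inj.1 e8] at e6
    have e9 : a = 1 := mul_right_cancel₀ (Nat.cast_ne_zero.2 hm0.ne') (e6.symm.trans (one_mul _).symm)
    exact fun g hg => by rw [ha g hg, e9, one_mul]
  · have hn := Normal.of_commutator_le _ hN
    have h9 : (S.map ι).Normal := ⟨by
      rintro _ ⟨s, e1, rfl⟩ c
      obtain ⟨t, ht⟩ := hn.conj_mem _ ⟨s, rfl⟩ c
      have e2 : t ∈ center H := mem_center_iff.2 fun v => hι (by
        obtain ⟨v', e3⟩ := hn.conj_mem _ ⟨v, rfl⟩ c⁻¹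
        have e4 := ((hc s e1 v').map ι).eq
        rw [e3] at e4
        rw [map_mul, map_mul, ht]
        calc _ = c * (c⁻¹ * ι v * c⁻¹⁻¹ * ι s) * c⁻¹ := by group
          _ = _ := by rw [← e4]; group)
      obtain ⟨k, hk⟩ := ord_of_mem hS e1
      have e3 : IsPGroup 2 (zpowers t) := IsPGroup.of_card (n := k) (by
        rw [Nat.card_zpowers, ← orderOf_injective ι hι, ht, orderOf_conj, orderOf_injective ι hι, hk])
      refine ⟨t, ?_, ht⟩
      rw [← ((Basic.isSylowCentralizer_iff 2 y S).1 h0).2.2 (S ⊔ zpowers t) (sup_p hS e3 (zpowers_le.2 (center_le_centralizer _ e2)))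
        (sup_le hSy (zpowers_le.2 (center_le_centralizer _ e2))) le_sup_left]
      exact mem_sup_right (mem_zpowers t)⟩
    obtain ⟨d, rfl⟩ := isConj_iff.1 b
    refine van_ov hM θ.2 h2 h5.ge hι hψ1 h a (hn.conj_mem _ ⟨u, rfl⟩ d) fun e => c ?_
    obtain ⟨s, e1, e2⟩ := h9.conj_mem _ e d⁻¹
    rwa [← hι (a₂ := u) (e2.trans (by group))]

end Cfsg.Agent.HZ.L.T3.Blk2
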